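import Cfsg.Agent.H651.O9.Eng
import Mathlib.LinearAlgebra.FiniteDimensional.Basic

/-!
# Isometries from matrices (helper830)
-/

set_option autoImplicit false

namespace Cfsg.Agent.H830.O9

open Cfsg.Agent.H651.O9

theorem B_comm (x y : V) : B x y = B y x := by simp only [B]; ring

theorem B_add_left (x x' y : V) : B (x + x') y = B x y + B x' y := by
  simp only [B, Pi.add_apply]
  ring

theorem B_smul_left (c : ZMod 3) (x y : V) : B (c • x) y = c * B x y := by
  simp only [B, Pi.smul_apply, smul_eq_mul]
  ring

theorem B_add_right (x y y' : V) : B x (y + y') = B x y + B x y' := by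
  simp only [B, Pi.add_apply]
  ring

theorem B_zero_left (y : V) : B 0 y = 0 := by simp [B]

/-- polarisation -/
theorem B_polar (x y : V) : B x y = 2 * (B (x + y) (x + y) - B x x - B y y) := by
  have h3 : (3 : ZMod 3) = 0 := by decide
  rw [B_add_left, B_add_right, B_add_right, B_comm y x]
  linear_combination (-B x y) * h3

/-- nondegeneracy -/
theorem eq_zero_of_B {x : V} (h : ∀ y, B x y = 0) : x = 0 := by
  have e : ∀ i : Fin 9, B x (Pi.single i 1) = 0 := fun i => h _
  have h0 := e 0
  have h1 := e 1
  have h2 := e 2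
  have h3 := e 3
  have h4 := e 4
  have h5 := e 5
  have h6 := e 6
  have h7 := e 7
  have h8 := e 8
  simp only [B, Pi.single_apply] at h0 h1 h2 h3 h4 h5 h6 h7 h8
  simp at h0 h1 h2 h3 h4 h5 h6 h7 h8
  funext i
  fin_cases i <;> assumption

/-- the linear map of a matrix -/
def mvL (R : List (List ℕ)) : V →ₗ[ZMod 3] V where
  toFun := mv R
  map_add' x y := by
    funext i
    simp only [mv, Pi.add_apply, mul_add, Finset.sum_add_distrib]
  map_smul' c x := by
    funext i
    simp only [mv, Pi.smul_apply, smul_eq_mul, RingHom.id_apply, Finset.mul_sum]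
    exact Finset.sum_congr rfl fun j _ => by ring

theorem mvL_apply (R : List (List ℕ)) (w : V) : mvL R w = mv R w := rfl

/-- **a matrix preserving the norms is an isometry** -/
theorem exists_ob (R : List (List ℕ)) (_hR : Sq R) (h : ∀ w, B (mv R w) (mv R w) = B w w) :
    ∃ g : V ≃ₗ[ZMod 3] V, g ∈ OB ∧ ∀ w, g w = mv R w := by
  have h2 : ∀ x y, B (mvL R x) (mvL R y) = B x y := by
    intro x y
    rw [B_polar (mvL R x), ← map_add, mvL_apply, mvL_apply, mvL_apply, h, h, h, ← B_polar]
  have hinj : Function.Injective (mvL R) := by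
    rw [← LinearMap.ker_eq_bot, LinearMap.ker_eq_bot']
    intro x hx
    apply eq_zero_of_B
    intro y
    rw [← h2, hx, B_zero_left]
  refine ⟨LinearEquiv.ofInjectiveEndo (mvL R) hinj, fun x y => h2 x y, fun w => rfl⟩

end Cfsg.Agent.H830.O9
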